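import Cfsg.Agent.H473.Ab.RowE8
import Cfsg.Agent.H928.AbNum
import Cfsg.Agent.H332.Ab.PB
import Cfsg.Agent.H316.Ab.X3Inst
import Cfsg.Agent.H197.Ab.X3
import Cfsg.Agent.H157.Ab.X1

/-!
# S2501: the rows `E₆(q)`, `E₇(q)`, `E₈(q)`, `F₄(q)` (helper473)
-/

set_option autoImplicit false

namespace Cfsg.Agent.H473.Ab.E8

open Cfsg Cfsg.Agent.H157.Ab

theorem e8 : ∀ (F : Type) [Field F] [Fintype F], Ab3 (Lie.chevE8.group F) :=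
  H928.AbNum.e8_of x1 H332.Ab.PB.pbE8 (H316.Ab.sb_E8 H197.Ab.X3.x3)

theorem e7 : ∀ (F : Type) [Field F] [Fintype F], Ab3 (Lie.chevE7.group F) :=
  H928.AbNum.e7_of x1 H332.Ab.PB.pbE7 (H316.Ab.sb_E7 H197.Ab.X3.x3)

theorem e6 : ∀ (F : Type) [Field F] [Fintype F], Ab3 (Lie.chevE6.group F) :=
  H928.AbNum.e6_of x1 H332.Ab.PB.pbE6 (H316.Ab.sb_E6 H197.Ab.X3.x3)

theorem f4 : ∀ (F : Type) [Field F] [Fintype F], Ab3 (Lie.chevF4.group F) :=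
  H928.AbNum.f4_of x1 H332.Ab.PB.pbF4 (H316.Ab.sb_F4 H197.Ab.X3.x3)

theorem ab3_E8 {G : Type*} [Group G] [Finite G] [IsSimpleGroup G] (h : Cfsg.Lie.IsoE8 G) : Ab3 G := by
  obtain ⟨F, i1, i2, ⟨e⟩⟩ := h
  exact (e8 F).congr e.symm

theorem ab3_E7 {G : Type*} [Group G] [Finite G] [IsSimpleGroup G] (h : Cfsg.Lie.IsoE7 G) : Ab3 G := by
  obtain ⟨F, i1, i2, ⟨e⟩⟩ := h
  exact (e7 F).congr e.symm

theorem ab3_E6 {G : Type*} [Group G] [Finite G] [IsSimpleGroup G] (h : Cfsg.Lie.IsoChevE6 G) : Ab3 G := by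
  obtain ⟨F, i1, i2, ⟨e⟩⟩ := h
  exact (e6 F).congr e.symm

theorem ab3_F4 {G : Type*} [Group G] [Finite G] [IsSimpleGroup G] (h : Cfsg.Lie.IsoF4 G) : Ab3 G := by
  obtain ⟨F, i1, i2, ⟨e⟩⟩ := h
  exact (f4 F).congr e.symm

end Cfsg.Agent.H473.Ab.E8
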